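import Mathlib
import Cfsg.Agent.Lib.LocStruct.SylowIn
import Cfsg.Agent.Lib.PGroup.Basic

/-!
Homogeneous finite groups: basic tools (central automorphisms of subgroups extend).
-/

set_option autoImplicit false

namespace H47.Homog

open Subgroup H69

variable {G : Type*} [Group G]

/-- Every isomorphism between subgroups extends to an automorphism. -/
def Hm (G : Type*) [Group G] : Prop :=
  ∀ (A B : Subgroup G) (e : A ≃* B), ∃ φ : G ≃* G, ∀ a : A, φ (a : G) = (e a : G)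

theorem Hm.of_inj (h : Hm G) {A : Type*} [Group A] (f₁ f₂ : A →* G) (h₁ : Function.Injective f₁)
    (h₂ : Function.Injective f₂) : ∃ φ : G ≃* G, ∀ a, φ (f₁ a) = f₂ a := by
  obtain ⟨φ, hφ⟩ := h _ _ ((MonoidHom.ofInjective h₁).symm.trans (MonoidHom.ofInjective h₂))
  refine ⟨φ, fun a => ?_⟩
  have := hφ (MonoidHom.ofInjective h₁ a)
  rwa [MulEquiv.trans_apply, MulEquiv.symm_apply_apply] at this

theorem Hm.equiv (h : Hm G) {K : Type*} [Group K] (e : G ≃* K) : Hm K := fun A B i => by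
  obtain ⟨φ, hφ⟩ := h.of_inj (e.symm.toMonoidHom.comp A.subtype)
    (e.symm.toMonoidHom.comp (B.subtype.comp i.toMonoidHom))
    (e.symm.injective.comp A.subtype_injective)
    (e.symm.injective.comp (B.subtype_injective.comp i.injective))
  exact ⟨(e.symm.trans φ).trans e, fun a => by
    rw [MulEquiv.trans_apply, MulEquiv.trans_apply, show φ (e.symm a) = e.symm (i a) from hφ a,
      MulEquiv.apply_symm_apply]⟩

theorem Hm.of_orderOf (h : Hm G) {x y : G} (e : orderOf x = orderOf y) :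
    ∃ φ : G ≃* G, φ x = y := by
  have hx : ∀ z : zpowers x, z ∈ zpowers (⟨x, mem_zpowers x⟩ : zpowers x) := fun ⟨_, k, hk⟩ =>
    ⟨k, Subtype.ext hk⟩
  have hy : ∀ z : zpowers y, z ∈ zpowers (⟨y, mem_zpowers y⟩ : zpowers y) := fun ⟨_, k, hk⟩ =>
    ⟨k, Subtype.ext hk⟩
  obtain ⟨φ, hφ⟩ := h _ _ (mulEquivOfOrderOfEq hx hy (by simpa only [orderOf_mk] using e))
  exact ⟨φ, by simpa using hφ ⟨x, mem_zpowers x⟩⟩

theorem Hm.mem_center (h : Hm G) {x y : G} (e : orderOf x = orderOf y) (hx : x ∈ center G) :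
    y ∈ center G := by
  obtain ⟨φ, rfl⟩ := h.of_orderOf e
  refine mem_center_iff.2 fun g => ?_
  obtain ⟨g, rfl⟩ := φ.surjective g
  rw [← map_mul, mem_center_iff.1 hx, map_mul]

theorem Hm.comm_cent (h : Hm G) {x y : G} (e : orderOf x = orderOf y)
    (hy : ∀ a b, a * y = y * a → b * y = y * b → a * b = b * a) {a b : G} (ha : a * x = x * a)
    (hb : b * x = x * b) : a * b = b * a := by
  obtain ⟨φ, rfl⟩ := h.of_orderOf e
  apply φ.injective
  rw [map_mul, map_mul]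
  exact hy _ _ (by rw [← map_mul, ha, map_mul]) (by rw [← map_mul, hb, map_mul])

/-- `H` meets `P` in a subgroup of index at most two. -/
def I2 (P H : Subgroup G) : Prop := ∀ x ∈ P, ∀ y ∈ P, x ∉ H → y ∉ H → x * y ∈ H

theorem I2.mul_iff {P H : Subgroup G} (h : I2 P H) {x y : G} (hx : x ∈ P) (hy : y ∈ P) :
    x * y ∈ H ↔ (x ∈ H ↔ y ∈ H) := by
  by_cases ha : x ∈ H; · simp only [ha, true_iff, mul_mem_cancel_left ha]
  by_cases hb : y ∈ H; · simp only [hb, iff_true, mul_mem_cancel_right hb]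
  simp only [ha, hb, h x hx y hy ha hb]

open Classical in
/-- The twisting factor. -/
noncomputable def tw (H : Subgroup G) (a x : G) : G := if x ∈ H then 1 else a

theorem tw_of_mem {H : Subgroup G} (a : G) {x : G} (h : x ∈ H) : tw H a x = 1 := if_pos h

theorem tw_of_not {H : Subgroup G} (a : G) {x : G} (h : x ∉ H) : tw H a x = a := if_neg h

theorem tw_cases (H : Subgroup G) (a x : G) : tw H a x = 1 ∨ tw H a x = a := by
  by_cases h : x ∈ H
  exacts [.inl (tw_of_mem a h), .inr (tw_of_not a h)]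

theorem tw_mem (H : Subgroup G) {K : Subgroup G} {a : G} (ha : a ∈ K) (x : G) : tw H a x ∈ K := by
  rcases tw_cases H a x with h | h <;> rw [h]
  exacts [one_mem _, ha]

theorem tw_congr {H K : Subgroup G} (a : G) {x y : G} (h : x ∈ H ↔ y ∈ K) : tw H a x = tw K a y := by
  by_cases hx : x ∈ H
  · rw [tw_of_mem a hx, tw_of_mem a (h.1 hx)]
  · rw [tw_of_not a hx, tw_of_not a (mt h.2 hx)]

theorem tw_mul_mem {H : Subgroup G} (a x : G) {y : G} (h : y ∈ H) : tw H a (x * y) = tw H a x :=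
  tw_congr a (mul_mem_cancel_right h)

theorem I2.tw_mul {P H : Subgroup G} (h : I2 P H) {a : G} (h2 : a * a = 1) {x y : G} (hx : x ∈ P)
    (hy : y ∈ P) : tw H a (x * y) = tw H a x * tw H a y := by
  have := h.mul_iff hx hy
  by_cases ha : x ∈ H <;> by_cases hb : y ∈ H <;> simp_all [tw]

theorem tw_sq (H : Subgroup G) {a : G} (h2 : a * a = 1) (x : G) : tw H a x * tw H a x = 1 := by
  rcases tw_cases H a x with h | h <;> simp [h, h2]

theorem conj_tw (H : Subgroup G) (a x g : G) : g * tw H a x * g⁻¹ = tw H (g * a * g⁻¹) x := by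
  by_cases h : x ∈ H <;> simp [tw, h]

/-- Central automorphisms of order two of a subgroup extend. -/
theorem Hm.twist (h : Hm G) {P H : Subgroup G} (hI : I2 P H) {a : G} (haP : a ∈ P) (haH : a ∈ H)
    (hc : a ∈ 𝐂(P)) (h2 : a * a = 1) :
    ∃ φ : G ≃* G, (∀ x ∈ P, φ x = x * tw H a x) ∧
      ∀ k, ∀ x ∈ P, φ k * x * (φ k)⁻¹ = φ (k * (x * tw H a x) * k⁻¹) := by
  let f : P →* G := MonoidHom.mk' (fun x => x * tw H a x) fun x y => by
    have : (y : G) * tw H a x = tw H a x * y := tw_mem H hc x y y.2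
    simp only [coe_mul, hI.tw_mul h2 x.2 y.2, mul_assoc]
    rw [← mul_assoc (y : G), this, mul_assoc]
  have hf : ∀ x, x * tw H a x * tw H a (x * tw H a x) = x := fun x => by
    rw [tw_mul_mem _ _ (tw_mem H haH x), mul_assoc, tw_sq H h2, mul_one]
  obtain ⟨φ, hφ⟩ := h.of_inj P.subtype f P.subtype_injective fun x y e => Subtype.ext (by
    rw [← hf x, ← hf y, show (x : G) * tw H a x = y * tw H a y from e])
  have h1 : ∀ x ∈ P, φ x = x * tw H a x := fun x hx => hφ ⟨x, hx⟩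
  refine ⟨φ, h1, fun k x hx => ?_⟩
  rw [map_mul, map_mul, map_inv, h1 _ (mul_mem hx (tw_mem H haP x)), hf]

/-- The commutator of an extended central automorphism with a normalizing element. -/
theorem Hm.comm (h : Hm G) {P H : Subgroup G} (hI : I2 P H) {a : G} (haP : a ∈ P) (haH : a ∈ H)
    (hc : a ∈ 𝐂(P)) (h2 : a * a = 1) {g : G} (hg : g ∈ 𝐍(P)) :
    ∃ k : G, ∀ x ∈ P, k * x * k⁻¹ = x * tw (H ^ᶜ g) (g * a * g⁻¹) x *
      tw H a (x * tw (H ^ᶜ g) (g * a * g⁻¹) x) := by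
  obtain ⟨φ, h1, h3⟩ := h.twist hI haP haH hc h2
  refine ⟨φ g * g⁻¹, fun x hx => ?_⟩
  have e : g * (g⁻¹ * x * g * tw H a (g⁻¹ * x * g)) * g⁻¹ = x * tw (H ^ᶜ g) (g * a * g⁻¹) x := by
    rw [← conj_tw, tw_congr a (mem_cj (A := H) (g := g) (x := x))]; group
  rw [← h1 _ (mul_mem hx (tw_mem _ (conj_mem_of_mem_normalizer hg haP) x)), ← e,
    ← h3 g _ (conj_mem_of_mem_normalizer' hg hx)]
  group

theorem exists_two_part [Finite G] (k : G) {P : Subgroup G} (h : k * k ∈ 𝐂(P)) :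
    ∃ k' : G, IsPGroup 2 (zpowers k') ∧ ∀ x ∈ P, k' * x * k'⁻¹ = k * x * k⁻¹ := by
  obtain ⟨j, m, hm, e⟩ := Nat.exists_eq_two_pow_mul_odd (orderOf_pos k).ne'
  obtain ⟨i, rfl⟩ := hm
  refine ⟨k ^ (2 * i + 1), isPGroup_iff_mem.2 ?_, fun x hx => ?_⟩
  · rintro _ ⟨n, rfl⟩
    refine ⟨j, ?_⟩
    have : (k ^ (2 * i + 1)) ^ 2 ^ j = 1 := by rw [← pow_mul, mul_comm, ← e, pow_orderOf_eq_one]
    change ((k ^ (2 * i + 1)) ^ n) ^ 2 ^ j = 1
    rw [← zpow_natCast, ← zpow_mul, mul_comm n, zpow_mul, zpow_natCast, this, one_zpow]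
  · rw [pow_succ', pow_mul, sq, mul_inv_rev, ← conj_eq_of_mem_centralizer (pow_mem h i) hx]
    conv_rhs => rw [conj_eq_of_mem_centralizer (pow_mem h i) hx]
    rw [conj_eq_of_mem_centralizer (pow_mem h i) hx]
    conv_rhs => rw [← conj_eq_of_mem_centralizer (pow_mem h i) hx]
    group

theorem mem_of_pow_two_pow [Finite G] {g : G} (ho : Odd (orderOf g)) {H : Subgroup G} {j : ℕ}
    (h : g ^ 2 ^ j ∈ H) : g ∈ H :=
  (zpowers_le.2 h) (mem_zpowers_pow_iff.2 (Nat.Coprime.pow_left j (Nat.coprime_two_left.2 ho)))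

theorem mem_of_sq [Finite G] {g : G} (ho : Odd (orderOf g)) {H : Subgroup G} (h : g * g ∈ H) :
    g ∈ H :=
  mem_of_pow_two_pow ho (j := 1) (by rwa [pow_one, sq])

theorem mem_norm (N : Subgroup G) [N.Normal] (g : G) : g ∈ 𝐍(N) := by
  rw [normalizer_eq_top]; trivial

theorem exists_odd_pow [Finite G] (x : G) : ∃ k : ℕ, Odd (orderOf (x ^ 2 ^ k)) := by
  obtain ⟨j, m, hm, e⟩ := Nat.exists_eq_two_pow_mul_odd (orderOf_pos x).ne'
  exact ⟨j, hm.of_dvd_nat (orderOf_dvd_of_pow_eq_one (by rw [← pow_mul, ← e, pow_orderOf_eq_one]))⟩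

theorem exists_I2 [Finite G] {P W : Subgroup G} (hP : IsPGroup 2 P) (h : ¬ P ≤ W) :
    ∃ H, W ⊓ P ≤ H ∧ H ≤ P ∧ I2 P H ∧ ¬ P ≤ H := by
  obtain ⟨M, h1, -, h2, h3⟩ := H5.exists_le_normal_index_eq hP (K := W.subgroupOf P)
    (by rwa [Ne, subgroupOf_eq_top])
  have hm : ∀ x : P, (x : G) ∈ M.map P.subtype ↔ x ∈ M := fun x =>
    mem_map_iff_mem P.subtype_injective
  refine ⟨M.map P.subtype, fun x hx => (hm ⟨x, hx.2⟩).2 (h1 hx.1), map_subtype_le _,
    fun x hx y hy a b => ?_,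
    fun e => h3.1 (eq_top_iff.2 fun x _ => (hm x).1 (e x.2))⟩
  refine (hm (⟨x, hx⟩ * ⟨y, hy⟩)).2 ((mul_mem_iff_of_index_two h2).2 ?_)
  exact iff_of_false (mt (hm _).2 a) (mt (hm _).2 b)

theorem comm_of_sq {E : Subgroup G} (hE : ∀ x ∈ E, x * x = 1) : E ≤ 𝐂(E) := fun x hx y hy => by
  rw [← inv_eq_of_mul_eq_one_right (hE _ (mul_mem hy hx)), mul_inv_rev,
    inv_eq_of_mul_eq_one_right (hE x hx), inv_eq_of_mul_eq_one_right (hE y hy)]

theorem mem_sup_inv {K : Subgroup G} {x : G} (hx : x ∈ 𝐍(K)) (h2 : x * x = 1) {g : G}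
    (hg : g ∈ K ⊔ zpowers x) : g ∈ K ∨ g * x ∈ K := by
  obtain ⟨k, hk, i, rfl⟩ := (H5.mem_sup_zpowers_iff hx).1 hg
  obtain ⟨j, rfl | rfl⟩ := Int.even_or_odd' i
  · left; rwa [zpow_mul, zpow_two, h2, one_zpow, mul_one]
  · right; rwa [zpow_add_one, zpow_mul, zpow_two, h2, one_zpow, one_mul, mul_assoc, h2, mul_one]

theorem exists_I2_not [Finite G] {E W : Subgroup G} (hE : ∀ x ∈ E, x * x = 1) (hW : W ≤ E) {x : G}
    (hx : x ∈ E) (hxW : x ∉ W) : ∃ H, W ≤ H ∧ H ≤ E ∧ x ∉ H ∧ I2 E H := by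
  obtain ⟨H, hWH, hH⟩ := Finite.exists_le_maximal (p := fun H : Subgroup G => H ≤ E ∧ x ∉ H)
    ⟨hW, hxW⟩
  have key : ∀ y ∈ E, y ∉ H → x * y ∈ H := fun y hy hyH => by
    refine (mem_sup_inv (le_normalizer_of_le_centralizer (A := H) (L := E)
      ((comm_of_sq hE).trans (centralizer_anti hH.1.1)) hy) (hE y hy) ?_).resolve_left hH.1.2
    by_contra h
    exact hyH (hH.2 ⟨sup_le hH.1.1 (zpowers_le.2 hy), h⟩ le_sup_left (mem_sup_right (mem_zpowers y)))
  refine ⟨H, hWH, hH.1.1, hH.1.2, fun y hy z hz a b => ?_⟩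
  have := mul_mem (key y hy a) (key z hz b)
  rwa [comm_of_sq hE hy x hx, mul_assoc, ← mul_assoc x, hE x hx, one_mul] at this

/-- The elements normalizing `B` and acting trivially on `A` modulo `B`. -/
def St (A B : Subgroup G) : Subgroup G where
  carrier := {x | x ∈ 𝐍(B) ∧ ∀ y ∈ A, x * y * x⁻¹ * y⁻¹ ∈ B}
  one_mem' := ⟨one_mem _, fun y _ => by simp⟩
  mul_mem' := fun {a b} ha hb => ⟨mul_mem ha.1 hb.1, fun y hy => by
    have := mul_mem (conj_mem_of_mem_normalizer ha.1 (hb.2 y hy)) (ha.2 y hy)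
    convert this using 1; group⟩
  inv_mem' := fun {a} ha => ⟨inv_mem ha.1, fun y hy => by
    have := conj_mem_of_mem_normalizer' ha.1 (inv_mem (ha.2 y hy))
    convert this using 1; group⟩

theorem St_le [Finite G] {A B : Subgroup G} (h : B ≤ A) : St A B ≤ 𝐍(A) :=
  le_normalizer_of_cj_le fun g hg x hx => by
    obtain ⟨a, ha, rfl⟩ := mem_cj'.1 hx
    simpa using mul_mem (h (hg.2 a ha)) ha

/-- A Sylow subgroup covers a `2`-group of automorphisms. -/
theorem cover [Finite G] {E B R : Subgroup G} (hB : B ≤ 𝐍(E))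
    (h4 : ∀ x ∈ B, ∃ j : ℕ, x ^ 2 ^ j ∈ 𝐂(E)) (hR : IsSylowIn 2 R B) {x : G} (hx : x ∈ B) :
    ∃ r ∈ R, ∀ y ∈ E, r * y * r⁻¹ = x * y * x⁻¹ := by
  have h1 := (hR.subgroupOf hB).map E.normalizerMonoidHom
  have h2 : IsPGroup 2 ((B.subgroupOf 𝐍(E)).map E.normalizerMonoidHom) := isPGroup_iff_mem.2 (by
    rintro _ ⟨b, hb, rfl⟩
    obtain ⟨j, hj⟩ := h4 b hb
    refine ⟨j, ?_⟩
    rw [← map_pow, ← MonoidHom.mem_ker, normalizerMonoidHom_ker]
    exact hj)
  obtain ⟨r, hr, e⟩ := (h1.max _ h1.le le_rfl h2).le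
    (mem_map_of_mem E.normalizerMonoidHom (x := ⟨x, hB hx⟩) hx)
  exact ⟨r, hr, fun y hy => by
    have := congrArg Subtype.val (DFunLike.congr_fun e ⟨y, hy⟩)
    exact this⟩

end H47.Homog
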