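import Mathlib
import Cfsg.Agent.Lib.Homog.Basic
import Cfsg.Agent.Lib.Core.Coprime

/-!
Homogeneous groups whose involutions are central: with two involutions, automizers of `2`-subgroups
are `2`-groups.
-/

set_option autoImplicit false

namespace H47.Homog

open Subgroup H69

variable {G : Type*} [Group G] [Finite G]

theorem cent_of_comm (hc : ∀ x : G, x * x = 1 → x ∈ center G) {g : G} (ho : Odd (orderOf g))
    (j : ℕ) : ∀ t : G, t ^ 2 ^ j = 1 → Commute t (g * t * g⁻¹) → g * t * g⁻¹ = t := by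
  induction j with
  | zero => intro t ht _; simp [show t = 1 by simpa using ht]
  | succ j ih =>
    intro t ht h
    have h1 := ih (t ^ 2) (by rw [← pow_mul, ← pow_succ', ht]) (by rw [← conj_pow]; exact h.pow_pow 2 2)
    have h2 : t⁻¹ * (g * t * g⁻¹) * (t⁻¹ * (g * t * g⁻¹)) = 1 := by
      rw [← sq, h.inv_left.mul_pow, conj_pow, h1, inv_pow, inv_mul_cancel]
    have h3 := mem_center_iff.1 (hc _ h2) g
    generalize hz : t⁻¹ * (g * t * g⁻¹) = z at h2 h3
    have h4 : g * t * g⁻¹ = t * z := by rw [← hz]; group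
    have h5 : g * g ∈ centralizer {t} := mem_centralizer_singleton_iff.2 (by
      calc g * g * t = g * (g * t * g⁻¹) * g := by group
        _ = g * (t * z) * g := by rw [h4]
        _ = g * t * g⁻¹ * (g * z) * g := by group
        _ = t * (z * z) * (g * g) := by rw [h4, h3]; group
        _ = _ := by rw [h2]; group)
    rw [mem_centralizer_singleton_iff.1 (mem_of_sq ho h5), mul_inv_cancel_right]

theorem Hm.cent_step (h : Hm G) (hc : ∀ x : G, x * x = 1 ↔ x ∈ center G) {a b : G}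
    (ha : a * a = 1) (hb : b * b = 1) (ha1 : a ≠ 1) (hb1 : b ≠ 1) (hab : a ≠ b) {Q : Subgroup G}
    (hQ : IsPGroup 2 Q) (hZ : center G ≤ Q)
    (hD : ∀ k ∈ St Q (center G), IsPGroup 2 (zpowers k) → k ∈ Q) {g : G} (hg : g ∈ 𝐍(Q))
    (ho : Odd (orderOf g)) : g ∈ 𝐂(Q) := by
  by_contra hn
  obtain ⟨H, h1, hHQ, hI, h2⟩ := exists_I2 hQ (W := 𝐂(zpowers g)) fun e =>
    hn (le_centralizer_iff.1 e (mem_zpowers g))
  have hZH : center G ≤ H := fun z hz => h1 ⟨center_le_centralizer _ hz, hZ hz⟩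
  have hgH : g ∉ 𝐍(H) := fun e => h2 (by
    obtain ⟨n, hn⟩ := IsPGroup.iff_card.1 hQ
    rw [← H2.commutator_sup_centralizer (zpowers_le.2 hg) (by
      rw [hn, Nat.card_zpowers]; exact (Nat.coprime_two_right.2 ho).pow_right _)
      (.inl inferInstance), sup_le_iff, commutator_le, inf_comm]
    refine ⟨fun x hx n hn => ?_, h1⟩
    have e2 := zpowers_le.2 e hn
    rw [commutatorElement_def, mul_assoc, mul_assoc, ← mul_assoc n,
      hI.mul_iff hx (conj_mem_of_mem_normalizer (zpowers_le.2 hg hn) (inv_mem hx)),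
      ← mem_normalizer_iff.1 e2, inv_mem_iff])
  let δ (c x : G) : G := tw (H ^ᶜ g) c x * tw H c x
  have δ1 : ∀ c x, c * c = 1 → (x ∈ H ^ᶜ g ↔ x ∈ H) → δ c x = 1 := fun c x hc e => by
    simp only [δ, tw_congr c e, tw_sq H hc]
  have δ2 : ∀ c x, ¬ (x ∈ H ^ᶜ g ↔ x ∈ H) → δ c x = c := fun c x e => by
    by_cases hx : x ∈ H
    · simp only [δ, tw_of_mem c hx, tw_of_not c (fun e' => e (iff_of_true e' hx)), mul_one]
    · simp only [δ, tw_of_not c hx, tw_of_mem c (not_not.1 fun e' => e (iff_of_false e' hx)), one_mul]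
  have δZ : ∀ c x, c * c = 1 → δ c x ∈ center G := fun c x h2 =>
    mul_mem (tw_mem _ ((hc c).1 h2) x) (tw_mem _ ((hc c).1 h2) x)
  have key : ∀ c, c * c = 1 → ∃ t ∈ Q, ∀ x ∈ Q, t * x * t⁻¹ = x * δ c x := fun c h2 => by
    have hz := (hc c).1 h2
    obtain ⟨k, hk⟩ := h.comm hI (hZ hz) (hZH hz) (center_le_centralizer _ hz) h2 hg
    have hk' : ∀ x ∈ Q, k * x * k⁻¹ = x * δ c x := fun x hx => by
      rw [hk x hx, mem_center_iff.1 hz g, mul_inv_cancel_right, tw_mul_mem _ _ (tw_mem _ (hZH hz) x),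
        mul_assoc]
    obtain ⟨t, ht, e⟩ := exists_two_part k (P := Q) fun x hx => by
      have h3 := mem_center_iff.1 (δZ c x h2) k
      calc x * (k * k) = x * (δ c x * δ c x) * (k * k) := by rw [(hc _).2 (δZ c x h2), mul_one]
        _ = k * x * k⁻¹ * (δ c x * k) * k := by rw [hk' x hx]; group
        _ = k * (x * δ c x) * k := by rw [← h3]; group
        _ = k * k * x := by rw [← hk' x hx]; group
    refine ⟨t, hD t ⟨mem_norm _ _, fun y hy => ?_⟩ ht, fun x hx => (e x hx).trans (hk' x hx)⟩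
    rw [e y hy, hk' y hy, mem_center_iff.1 (δZ c y h2), mul_inv_cancel_right]
    exact δZ c y h2
  obtain ⟨t, ht, h3⟩ := key a ha
  obtain ⟨s, hs, h4⟩ := key b hb
  have ht' := conj_mem_of_mem_normalizer hg ht
  have h5 : ∀ x ∈ Q, g * t * g⁻¹ * x * (g * t * g⁻¹)⁻¹ = x * δ a (g⁻¹ * x * g) := fun x hx => by
    calc _ = g * (t * (g⁻¹ * x * g) * t⁻¹) * g⁻¹ := by group
      _ = x * (g * δ a (g⁻¹ * x * g)) * g⁻¹ := by
        rw [h3 _ (conj_mem_of_mem_normalizer' hg hx)]; group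
      _ = _ := by rw [mem_center_iff.1 (δZ a _ ha) g]; group
  have h6 : g * t * g⁻¹ ∈ H ^ᶜ g ↔ g * t * g⁻¹ ∈ H := by
    by_contra e
    have e1 := h4 _ ht'
    have e2 := h5 s hs
    rw [δ2 b _ e] at e1
    have e3 : δ a (g⁻¹ * s * g) = b := by
      generalize g * t * g⁻¹ = u at e1 e2
      have e4 := mem_center_iff.1 ((hc b).1 hb)
      calc _ = s⁻¹ * u * (s * u⁻¹ * s⁻¹) * s := by rw [← inv_mul_eq_iff_eq_mul] at e2; rw [← e2]; group
        _ = s⁻¹ * u * (s * u * s⁻¹)⁻¹ * s := by group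
        _ = s⁻¹ * (u * b) * u⁻¹ * s := by rw [e1, mul_inv_rev, inv_eq_of_mul_eq_one_right hb]; group
        _ = s⁻¹ * (b * s) := by rw [e4 u]; group
        _ = b := by rw [← e4 s]; group
    by_cases e4 : g⁻¹ * s * g ∈ H ^ᶜ g ↔ g⁻¹ * s * g ∈ H
    · exact hb1 (e3.symm.trans (δ1 a _ ha e4))
    · exact hab ((δ2 a _ e4).symm.trans e3)
  obtain ⟨j, hj⟩ := isPGroup_iff_mem.1 hQ t ht
  have h7 := cent_of_comm (fun x => (hc x).1) ho j t hj (by
    have := h3 _ ht'
    rwa [δ1 a _ ha h6, mul_one, mul_inv_eq_iff_eq_mul] at this)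
  refine hgH (mem_of_sq ho (mem_normalizer_of_cj_le fun x hx => ?_))
  have hx' : x ∈ Q := cj_le_of_mem_normalizer hHQ (mul_mem hg hg) hx
  have e := (h5 x hx').symm.trans (h7.symm ▸ h3 x hx')
  have e1 : g⁻¹ * x * g ∈ H ^ᶜ g := by
    rw [mem_cj] at hx ⊢
    convert hx using 1; group
  by_contra e2
  by_cases e3 : x ∈ H ^ᶜ g
  · rw [δ1 a _ ha (iff_of_true e1 (mem_cj.1 e3)), δ2 a _ fun e4 => e2 (e4.1 e3)] at e
    exact ha1 (mul_left_cancel e).symm
  · rw [δ2 a _ fun e4 => e3 (mem_cj.2 (e4.1 e1)), δ1 a _ ha (iff_of_false e3 e2)] at e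
    exact ha1 (mul_left_cancel e)

theorem Hm.odd_cent (h : Hm G) (hc : ∀ x : G, x * x = 1 ↔ x ∈ center G) {a b : G}
    (ha : a * a = 1) (hb : b * b = 1) (ha1 : a ≠ 1) (hb1 : b ≠ 1) (hab : a ≠ b) (Q : Subgroup G) :
    IsPGroup 2 Q → ∀ g ∈ 𝐍(Q), Odd (orderOf g) → g ∈ 𝐂(Q) := by
  induction Q using WellFoundedGT.induction with | ind Q ih => ?_
  intro hQ g hg ho
  have hZ2 : IsPGroup 2 (center G) := isPGroup_iff_mem.2 fun x hx => ⟨1, by simpa [sq] using (hc x).2 hx⟩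
  by_cases hZ : center G ≤ Q
  swap
  · exact centralizer_anti le_sup_left (ih _ (left_lt_sup.2 hZ) (hQ.to_sup_of_normal_right hZ2) g
      (le_normalizer_sup le_rfl (fun x _ => mem_norm _ x) hg) ho)
  have hDN := St_le hZ
  have hND : 𝐍(Q) ≤ 𝐍(St Q (center G)) := le_normalizer_of_cj_le fun n hn x hx => by
    obtain ⟨d, hd, rfl⟩ := mem_cj'.1 hx
    refine ⟨mem_norm _ _, fun y hy => ?_⟩
    have := (inferInstance : (center G).Normal).conj_mem _
      (hd.2 _ (conj_mem_of_mem_normalizer' hn hy)) n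
    convert this using 1; group
  obtain ⟨R, hR⟩ := exists_isSylowIn 2 (St Q (center G))
  by_cases hRQ : R ≤ Q
  · refine h.cent_step hc ha hb ha1 hb1 hab hQ hZ (fun k hk h2 => ?_) hg ho
    obtain ⟨m, hm, e⟩ := hR.exists_le_cj h2 (zpowers_le.2 hk)
    exact cj_le_of_mem_normalizer hRQ (hDN hm) (e (mem_zpowers k))
  obtain ⟨d, hd, n, hn, rfl⟩ := hR.frattini (hND hg)
  have hnQ : n ∈ 𝐍(Q) := (mul_mem_cancel_left (hDN hd)).1 hg
  obtain ⟨j, hj⟩ := exists_odd_pow n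
  have h1 := centralizer_anti le_sup_left (ih _ (left_lt_sup.2 hRQ)
    (isPGroup_sup_of_le_normalizer_left hQ hR.isP (hR.le.trans hDN)) _
    (pow_mem (le_normalizer_sup inf_le_left inf_le_right (show n ∈ 𝐍(Q) ⊓ 𝐍(R) from ⟨hnQ, hn⟩)) _) hj)
  have h2 : ∀ i : ℕ, (d * n) ^ i * (n ^ i)⁻¹ ∈ St Q (center G) := fun i => by
    induction i with
    | zero => simp
    | succ i ih =>
      have := mul_mem hd (conj_mem_of_mem_normalizer (hND hnQ) ih)
      convert this using 1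
      rw [pow_succ', pow_succ']; group
  have h3 : n ^ 2 ^ j ∈ St Q (center G) := ⟨mem_norm _ _, fun y hy => by
    rw [conj_eq_of_mem_centralizer h1 hy, mul_inv_cancel]; exact one_mem _⟩
  have h4 := mem_of_pow_two_pow ho ((mul_mem_cancel_right (inv_mem h3)).1 (h2 _))
  generalize d * n = g at h4 ho
  refine mem_of_sq ho fun x hx => ?_
  have h5 := h4.2 x hx
  have h6 := (hc _).2 h5
  have h7 := mem_center_iff.1 h5 g
  generalize hz : g * x * g⁻¹ * x⁻¹ = z at h6 h7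
  have h8 : g * x * g⁻¹ = z * x := by rw [← hz]; group
  calc x * (g * g) = z * (z * x) * (g * g) := by rw [← mul_assoc z, h6]; group
    _ = z * g * x * g := by rw [← h8]; group
    _ = g * (z * x) * g := by rw [← h7]; group
    _ = _ := by rw [← h8]; group

end H47.Homog
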