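import Mathlib
import Cfsg.Agent.Lib.Homog.Basic
import Cfsg.Agent.S0215

/-!
Homogeneous simple groups have `2`-rank at most two.
-/

set_option autoImplicit false

namespace H47.Homog

open Subgroup H69

variable {G : Type*} [Group G] [Finite G] {E : Subgroup G}

omit [Finite G] in
theorem mem_zp {a y : G} (ha : a * a = 1) (hy : y ∈ zpowers a) : y = 1 ∨ y = a := by
  rcases mem_sup_inv (K := ⊥) (mem_norm _ a) ha (mem_sup_right hy) with h | h
  · exact .inl h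
  · exact .inr (mul_right_cancel ((mem_bot.1 h).trans ha.symm))

theorem exists_not_pair (hE : ∀ x ∈ E, x * x = 1) (h4 : 4 < Nat.card E) {a b : G} (ha : a ∈ E)
    (hb : b ∈ E) : ∃ y ∈ E, y ∉ zpowers a ⊔ zpowers b := by
  classical
  by_contra! h
  have : (E : Set G) ⊆ ({1, a, b⁻¹, a * b⁻¹} : Finset G) := fun y hy => by
    rcases mem_sup_inv (le_normalizer_of_le_centralizer (L := E) ((comm_of_sq hE).trans
      (centralizer_anti (zpowers_le.2 ha))) hb) (hE b hb) (h y hy) with h | h <;>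
      rcases mem_zp (hE a ha) h with h | h
    · simp [h]
    · simp [h]
    · simp [eq_mul_inv_of_mul_eq h]
    · simp [eq_mul_inv_of_mul_eq h]
  have h2 := Set.ncard_le_ncard this
  rw [Set.ncard_coe_finset] at h2
  exact absurd (h2.trans Finset.card_le_four) (not_le.2 h4)

theorem Hm.exists_tv (h : Hm G) (hE : ∀ x ∈ E, x * x = 1) (h4 : 4 < Nat.card E) {g : G}
    (hg : g ∈ 𝐍(E)) (hn : g ∉ 𝐂(E)) : ∃ (L : Subgroup G) (e u : G), L ≤ E ∧ I2 E L ∧ ¬ E ≤ L ∧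
      e ∈ L ∧ e ≠ 1 ∧ ∀ x ∈ E, u * x * u⁻¹ = x * tw L e x := by
  have hC := comm_of_sq hE
  obtain ⟨a, ha, hga⟩ : ∃ a ∈ E, g * a * g⁻¹ ≠ a := by
    by_contra! h
    exact hn fun a ha => (mul_inv_eq_iff_eq_mul.1 (h a ha)).symm
  have ha' := conj_mem_of_mem_normalizer hg ha
  obtain ⟨y, hy, hy'⟩ := exists_not_pair hE h4 ha ha'
  obtain ⟨L, h1, hL, hyL, hI⟩ := exists_I2_not hE (sup_le (zpowers_le.2 ha) (zpowers_le.2 ha')) hy hy'
  have haL : a ∈ L := h1 (mem_sup_left (mem_zpowers _))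
  have haL' : g * a * g⁻¹ ∈ L := h1 (mem_sup_right (mem_zpowers _))
  obtain ⟨k, hk⟩ := h.comm hI ha haL (hC ha) (hE a ha) hg
  have hk1 : k ∈ St E L → k ∈ 𝐍(E) := fun e => St_le hL e
  have hk2 : ∀ x ∈ E, x⁻¹ * (k * x * k⁻¹) ∈ L := fun x hx => by
    rw [hk x hx, mul_assoc, inv_mul_cancel_left]
    exact mul_mem (tw_mem _ haL' _) (tw_mem _ haL _)
  have hkL : k ∈ 𝐍(L) := mem_normalizer_of_cj_le fun x hx => by
    obtain ⟨b, hb, rfl⟩ := mem_cj'.1 hx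
    simpa using mul_mem hb (hk2 b (hL hb))
  have hkE : k ∈ 𝐍(E) := mem_normalizer_of_cj_le fun x hx => by
    obtain ⟨b, hb, rfl⟩ := mem_cj'.1 hx
    simpa using mul_mem hb (hL (hk2 b hb))
  by_cases hc : ∀ b ∈ L, k * b * k⁻¹ = b
  · refine ⟨L, y⁻¹ * (k * y * k⁻¹), k, hL, hI, fun e => hyL (e hy), hk2 y hy, fun e => ?_,
      fun x hx => ?_⟩
    · rw [hk y hy, tw_mul_mem _ _ (tw_mem _ haL' _), tw_of_not a hyL, mul_assoc,
        inv_mul_cancel_left] at e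
      rcases tw_cases (L ^ᶜ g) (g * a * g⁻¹) y with h | h <;> rw [h] at e
      · exact hga (by rw [show a = 1 by simpa using e]; simp)
      · exact hga (mul_right_cancel (e.trans (hE a ha).symm))
    · by_cases hxL : x ∈ L
      · rw [hc x hxL, tw_of_mem _ hxL, mul_one]
      · have := hc _ (hI x hx _ (inv_mem hy) hxL (mt inv_mem_iff.1 hyL))
        rw [tw_of_not _ hxL, ← mul_assoc, ← this]; group
  · push Not at hc
    obtain ⟨b, hb, hkb⟩ := hc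
    obtain ⟨u, hu⟩ := h.comm hI (hL hb) hb (hC (hL hb)) (hE b (hL hb)) hkE
    have hb' := conj_mem_of_mem_normalizer hkL hb
    refine ⟨L, k * b * k⁻¹ * b, u, hL, hI, fun e => hyL (e hy), mul_mem hb' hb,
      fun e => hkb (mul_right_cancel (e.trans (hE b (hL hb)).symm)), fun x hx => ?_⟩
    rw [hu x hx, tw_mul_mem _ _ (tw_mem _ hb' _), cj_eq_of_mem_normalizer hkL, mul_assoc]
    by_cases hxL : x ∈ L <;> simp [tw, hxL]

/-- The dihedral configuration of transvections. -/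
theorem Hm.exists_cfg (h : Hm G) (hE : ∀ x ∈ E, x * x = 1) (h4 : 4 < Nat.card E) {g : G}
    (hg : g ∈ 𝐍(E)) (hn : g ∉ 𝐂(E)) : ∃ (L M : Subgroup G) (e₁ e₂ c u₁ u₂ g : G), L ≤ E ∧
      I2 E M ∧ e₁ ∈ L ∧ e₂ ∈ L ∧ e₁ ≠ 1 ∧ c ∈ E ∧ c ∉ L ∧ e₁ ∈ M ∧ e₂ ∉ M ∧
      (∀ x ∈ E, u₁ * x * u₁⁻¹ = x * tw L e₁ x) ∧ (∀ x ∈ E, u₂ * x * u₂⁻¹ = x * tw L e₂ x) ∧
      (∀ x ∈ E, g * x * g⁻¹ = x ∨ g * x * g⁻¹ = x * e₁) ∧ g * e₁ * g⁻¹ = e₁ ∧
      g * e₂ * g⁻¹ = e₂ * e₁ := by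
  have hC := comm_of_sq hE
  obtain ⟨L, e₁, u, hL, hI, hEL, h1, h1', hu⟩ := h.exists_tv hE h4 hg hn
  obtain ⟨c, hc, hcL⟩ := SetLike.not_le_iff_exists.1 hEL
  obtain ⟨e₂, h2, h2'⟩ : ∃ e₂ ∈ L, e₂ ∉ zpowers e₁ ⊔ zpowers c := by
    obtain ⟨y, hy, hy'⟩ := exists_not_pair hE h4 (hL h1) hc
    by_cases hyL : y ∈ L
    · exact ⟨y, hyL, hy'⟩
    · exact ⟨y * c, hI y hy c hc hyL hcL, by
        rwa [mul_mem_cancel_right (mem_sup_right (mem_zpowers c))]⟩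
  obtain ⟨M, hM1, -, hM2, hM⟩ :=
    exists_I2_not hE (sup_le (zpowers_le.2 (hL h1)) (zpowers_le.2 hc)) (hL h2) h2'
  have hm1 : e₁ ∈ M := hM1 (mem_sup_left (mem_zpowers _))
  have hmc : c ∈ M := hM1 (mem_sup_right (mem_zpowers _))
  have h12 := mul_mem h1 h2
  obtain ⟨N, hN1, -, hN2, hN⟩ := exists_I2_not hE (zpowers_le.2 (hL h12)) (hL h1) fun e => by
    rcases mem_zp (hE _ (hL h12)) e with e | e
    · exact h1' e
    · exact hM2 (left_eq_mul.1 e ▸ one_mem M)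
  have hn := hN1 (mem_zpowers _)
  obtain ⟨φ, hφ1, hφ2⟩ := h.twist hN (hL h12) hn (hC (hL h12)) (hE _ (hL h12))
  obtain ⟨ψ, hψ1, hψ2⟩ := h.twist hM hc hmc (hC hc) (hE c hc)
  have hψ : ∀ x ∈ E, ψ u * x * (ψ u)⁻¹ = x * tw L e₁ (x * tw M c x) := fun x hx => by
    have e := mul_mem hx (tw_mem M hc x)
    have e' := tw_mem L (hL h1) (x * tw M c x)
    rw [hψ2 u x hx, hu _ e, hψ1 _ (mul_mem e e'), tw_mul_mem _ _ (tw_mem L hm1 _),
      tw_mul_mem _ _ (tw_mem M hmc _), mul_assoc, hC (tw_mem M hc x) _ e', ← mul_assoc,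
      mul_assoc x, tw_sq M (hE c hc), mul_one]
  refine ⟨L, M, e₁, e₂, c, u, φ u, ψ u, hL, hM, h1, h2, h1', hc, hcL, hm1, hM2, hu, fun x hx => ?_,
    fun x hx => ?_, ?_, ?_⟩
  · have e := mul_mem hx (tw_mem N (hL h12) x)
    rw [hφ2 u x hx, hu _ e, tw_mul_mem _ _ (tw_mem N h12 x), map_mul, hφ1 _ e,
      tw_mul_mem _ _ (tw_mem N hn x), mul_assoc x, tw_sq N (hE _ (hL h12)), mul_one]
    by_cases hxL : x ∈ L
    · simp [tw_of_mem _ hxL]
    · rw [tw_of_not _ hxL, tw_of_not _ hxL, hφ1 _ (hL h1), tw_of_not _ hN2, ← mul_assoc e₁,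
        hE _ (hL h1), one_mul]
  · rw [hψ x hx]
    rcases tw_cases L e₁ (x * tw M c x) with e | e <;> simp [e]
  · rw [hψ _ (hL h1), tw_of_mem c hm1, mul_one, tw_of_mem _ h1, mul_one]
  · rw [hψ _ (hL h2), tw_of_not c hM2, tw_of_not _ (by rwa [mul_mem_cancel_left h2])]

theorem Hm.norm_le_cent (h : Hm G) (hE : ∀ x ∈ E, x * x = 1) (h4 : 4 < Nat.card E) :
    𝐍(E) ≤ 𝐂(E) := fun g₀ hg₀ => by
  by_contra hn
  have hC := comm_of_sq hE
  obtain ⟨L, M, e₁, e₂, c, u₁, u₂, g, hL, hM, h1, h2, h1', hc, hcL, hm1, hm2, hu1, hu2, hg, hg1, hg2⟩ :=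
    h.exists_cfg hE h4 hg₀ hn
  have q1 := hE _ (hL h1)
  have q2 := hE _ (hL h2)
  let V := zpowers e₁ ⊔ zpowers e₂
  have v1 : e₁ ∈ V := mem_sup_left (mem_zpowers _)
  have v2 : e₂ ∈ V := mem_sup_right (mem_zpowers _)
  have hVL : V ≤ L := sup_le (zpowers_le.2 h1) (zpowers_le.2 h2)
  let B := St E V ⊓ (St L (zpowers e₁) ⊓ 𝐂(zpowers e₁))
  have hB : B ≤ 𝐍(E) := inf_le_left.trans (St_le (hVL.trans hL))
  have memB : ∀ x, (∀ y ∈ E, y⁻¹ * (x * y * x⁻¹) ∈ V) → (∀ y ∈ L, y⁻¹ * (x * y * x⁻¹) ∈ zpowers e₁) →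
      x * e₁ * x⁻¹ = e₁ → x ∈ B := fun x a b d => by
    have d' : x ∈ 𝐂(zpowers e₁) := by
      rw [centralizer_zpowers, mem_centralizer_singleton_iff]; exact mul_inv_eq_iff_eq_mul.1 d
    have e : ∀ y ∈ E, x * y * x⁻¹ * y⁻¹ = y⁻¹ * (x * y * x⁻¹) := fun y hy =>
      hC (inv_mem hy) _ (by simpa using mul_mem hy (hL (hVL (a y hy))))
    refine ⟨⟨mem_normalizer_of_cj_le fun z hz => ?_, fun y hy => e y hy ▸ a y hy⟩,
      ⟨le_normalizer_of_le_centralizer le_rfl d', fun y hy => e y (hL hy) ▸ b y hy⟩, d'⟩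
    obtain ⟨y, hy, rfl⟩ := mem_cj'.1 hz
    simpa using mul_mem hy (a y (hL (hVL hy)))
  have tvB : ∀ u e, e ∈ V → (∀ x ∈ E, u * x * u⁻¹ = x * tw L e x) → u ∈ B := fun u e he hu =>
    memB u (fun y hy => by rw [hu y hy, inv_mul_cancel_left]; exact tw_mem _ he _)
      (fun y hy => by rw [hu y (hL hy), tw_of_mem _ hy]; simp)
      (by rw [hu _ (hL h1), tw_of_mem _ h1, mul_one])
  have hCB : 𝐂(E) ≤ B := fun x hx => memB x
    (fun y hy => by rw [conj_eq_of_mem_centralizer hx hy]; simp)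
    (fun y hy => by rw [conj_eq_of_mem_centralizer hx (hL hy)]; simp)
    (conj_eq_of_mem_centralizer hx (hL h1))
  have h4 : ∀ x ∈ B, ∃ j : ℕ, x ^ 2 ^ j ∈ 𝐂(E) := fun x hx => ⟨2, fun y hy => by
    have a := hx.1.2 y hy
    have b := hx.2.1.2 _ (hVL a)
    have d := conj_eq_of_mem_centralizer hx.2.2 b
    have a2 := hE _ (hL (hVL a))
    have b2 := hE _ (hL (zpowers_le.2 h1 b))
    generalize hv : x * y * x⁻¹ * y⁻¹ = v at a2 b2 d
    generalize hw : x * v * x⁻¹ * v⁻¹ = w at b2 d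
    have e1 : x * y * x⁻¹ = v * y := by rw [← hv]; group
    have e2 : x * v * x⁻¹ = w * v := by rw [← hw]; group
    have e3 : x * x * y * (x * x)⁻¹ = w * y := by
      calc _ = x * (x * y * x⁻¹) * x⁻¹ := by group
        _ = x * (v * y) * x⁻¹ := by rw [e1]
        _ = x * v * x⁻¹ * (x * y * x⁻¹) := by group
        _ = w * (v * v) * y := by rw [e1, e2]; group
        _ = _ := by rw [a2, mul_one]
    rw [show x ^ 2 ^ 2 = x * x * (x * x) by simp [pow_succ, mul_assoc], eq_comm,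
      ← mul_inv_eq_iff_eq_mul]
    calc _ = x * x * (x * x * y * (x * x)⁻¹) * (x * x)⁻¹ := by group
      _ = x * x * (w * y) * (x * x)⁻¹ := by rw [e3]
      _ = x * (x * w * x⁻¹) * x⁻¹ * (x * x * y * (x * x)⁻¹) := by group
      _ = _ := by rw [d, d, e3, ← mul_assoc, b2, one_mul]⟩
  obtain ⟨R, hR⟩ := exists_isSylowIn 2 B
  obtain ⟨r₁, hr1, e1⟩ := cover hB h4 hR (tvB u₁ e₁ v1 hu1)
  obtain ⟨r₂, hr2, e2⟩ := cover hB h4 hR (tvB u₂ e₂ v2 hu2)
  obtain ⟨r, hr, e3⟩ := cover hB h4 hR (memB g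
    (fun y hy => by rcases hg y hy with e | e <;> simp [e, v1])
    (fun y hy => by rcases hg y (hL hy) with e | e <;> simp [e]) hg1)
  replace hu1 := fun x hx => (e1 x hx).trans (hu1 x hx)
  replace hu2 := fun x hx => (e2 x hx).trans (hu2 x hx)
  rw [← e3 _ (hL h1)] at hg1
  rw [← e3 _ (hL h2)] at hg2
  replace hg : ∀ x ∈ E, r * x * r⁻¹ = x ∨ r * x * r⁻¹ = x * e₁ := fun x hx => e3 x hx ▸ hg x hx
  have hT := hR.inf_normal hCB (hB.trans (normalizer_le_normalizer_centralizer E))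
  have hrE := hB (hR.le hr)
  have hrT : r ∈ 𝐍(R ⊓ 𝐂(E)) := le_normalizer_inf (L := R) le_normalizer
    (hR.le.trans (hB.trans (normalizer_le_normalizer_centralizer E))) hr
  set T := R ⊓ 𝐂(E) with hTd
  have hET : E ≤ T := hT.le_of_le_normalizer (isPGroup_iff_mem.2 fun x hx => ⟨1, by
    simpa [sq] using hE x hx⟩) hC (le_normalizer_of_le_centralizer hT.le)
  have hEY : E ≤ T ⊓ 𝐂(T) := le_inf hET (le_centralizer_iff.1 hT.le)
  have hY : T ⊓ 𝐂(T) ≤ E := by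
    by_contra hn
    obtain ⟨H, b1, -, hI, b2⟩ := exists_I2 (hT.isP.to_inf_left) hn
    have hEH : E ≤ H := (le_inf le_rfl hEY).trans b1
    have hrY : r ∈ 𝐍(T ⊓ 𝐂(T)) := le_normalizer_inf (L := 𝐍(T)) le_rfl
      (normalizer_le_normalizer_centralizer T) hrT
    have hYE : T ⊓ 𝐂(T) ≤ 𝐂(E) := inf_le_left.trans hT.le
    obtain ⟨k, hk⟩ := h.comm hI (hEY (hL h2)) (hEH (hL h2)) (le_centralizer_iff.1 hYE (hL h2)) q2 hrY
    have b3 := conj_mem_of_mem_normalizer hrE (hL h2)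
    have hd : ∀ x, tw (H ^ᶜ r) (r * e₂ * r⁻¹) x * tw H e₂ x ∈ E := fun x =>
      mul_mem (tw_mem _ b3 _) (tw_mem _ (hL h2) _)
    replace hk : ∀ x ∈ T ⊓ 𝐂(T), k * x * k⁻¹ = x * (tw (H ^ᶜ r) (r * e₂ * r⁻¹) x * tw H e₂ x) :=
      fun x hx => by rw [hk x hx, tw_mul_mem _ _ (tw_mem _ (hEH b3) _), mul_assoc]
    have hkE : ∀ x ∈ E, k * x * k⁻¹ = x := fun x hx => by
      rw [hk x (hEY hx), tw_of_mem _ (hEH hx),
        tw_of_mem _ (mem_cj.2 (hEH (conj_mem_of_mem_normalizer' hrE hx))), mul_one, mul_one]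
    obtain ⟨t, ht, e⟩ := exists_two_part k (P := T ⊓ 𝐂(T)) fun x hx => by
      rw [eq_comm, ← mul_inv_eq_iff_eq_mul]
      have e1 := hk x hx
      have e2 := hd x
      generalize tw (H ^ᶜ r) (r * e₂ * r⁻¹) x * tw H e₂ x = d at e1 e2
      calc _ = k * (k * x * k⁻¹) * k⁻¹ := by group
        _ = k * (x * d) * k⁻¹ := by rw [e1]
        _ = k * x * k⁻¹ * (k * d * k⁻¹) := by group
        _ = x := by rw [hkE _ e2, e1, mul_assoc, hE _ e2, mul_one]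
    have htm : t ∈ 𝐂(E) ⊓ 𝐍(T ⊓ 𝐂(T)) := ⟨fun x hx => by
      rw [eq_comm, ← mul_inv_eq_iff_eq_mul, e x (hEY hx), hkE x hx], mem_normalizer_of_cj_le fun z hz => by
        obtain ⟨x, hx, rfl⟩ := mem_cj'.1 hz
        rw [e x hx, hk x hx]; exact mul_mem hx (hEY (hd x))⟩
    obtain ⟨m, hm, b4⟩ := (hT.mono (le_inf hT.le (le_normalizer_inf le_normalizer
      (le_normalizer_centralizer le_normalizer))) inf_le_left).exists_le_cj ht (zpowers_le.2 htm)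
    have b5 : t ∈ 𝐂(T ⊓ 𝐂(T)) := cj_le_of_mem_normalizer (le_centralizer_iff.1 inf_le_right)
      (normalizer_le_normalizer_centralizer _ hm.2) (b4 (mem_zpowers t))
    obtain ⟨x, hx, hxH⟩ := SetLike.not_le_iff_exists.1 b2
    have b6 := (conj_eq_of_mem_centralizer b5 hx).symm.trans ((e x hx).trans (hk x hx))
    rw [left_eq_mul, tw_of_not _ hxH, hg2] at b6
    rcases tw_cases (H ^ᶜ r) (e₂ * e₁) x with b7 | b7 <;> rw [b7] at b6
    · exact hm2 (by rw [show e₂ = 1 by simpa using b6]; exact one_mem _)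
    · exact h1' (left_eq_mul.1 (mul_right_cancel (q2.trans b6.symm)))
  let P := R ⊓ 𝐂(L)
  have hv : ∀ x ∈ P, x * c * x⁻¹ * c⁻¹ ∈ L := fun x hx => hVL ((hR.le hx.1).1.2 c hc)
  have hmul : ∀ x ∈ P, ∀ y ∈ P, x * y * c * (x * y)⁻¹ * c⁻¹ =
      (y * c * y⁻¹ * c⁻¹) * (x * c * x⁻¹ * c⁻¹) := fun x hx y hy => by
    rw [← conj_eq_of_mem_centralizer hx.2 (hv y hy)]; group
  let H : Subgroup G :=
    { carrier := {x | x ∈ P ∧ x * c * x⁻¹ * c⁻¹ ∈ M}
      one_mem' := ⟨one_mem _, by simp⟩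
      mul_mem' := fun {x y} hx hy => ⟨mul_mem hx.1 hy.1, hmul x hx.1 y hy.1 ▸ mul_mem hy.2 hx.2⟩
      inv_mem' := fun {x} hx => ⟨inv_mem hx.1, by
        have := hmul x hx.1 _ (inv_mem hx.1)
        rw [mul_inv_cancel, one_mul, inv_one, mul_one, mul_inv_cancel, eq_comm,
          mul_eq_one_iff_eq_inv] at this
        exact this ▸ inv_mem hx.2⟩ }
  have hI : I2 P H := fun x hx y hy a b => ⟨mul_mem hx hy, hmul x hx y hy ▸
    hM _ (hL (hv y hy)) _ (hL (hv x hx)) (fun e => b ⟨hy, e⟩) fun e => a ⟨hx, e⟩⟩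
  have hTH : T ≤ H := fun x hx => ⟨⟨hx.1, centralizer_anti hL hx.2⟩, by
    rw [conj_eq_of_mem_centralizer hx.2 hc]; simp⟩
  have hrL : r ∈ 𝐍(L) := St_le (zpowers_le.2 h1) (hR.le hr).2.1
  have hrP : r ∈ 𝐍(P) := le_normalizer_inf (L := zpowers r) ((zpowers_le.2 hr).trans le_normalizer)
    (zpowers_le.2 (normalizer_le_normalizer_centralizer L hrL)) (mem_zpowers r)
  have hrH : r ∈ 𝐍(H) := inv_mem_iff.1 (mem_normalizer_of_cj_le fun z hz => by
    obtain ⟨x, hx, rfl⟩ := mem_cj'.1 hz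
    refine ⟨conj_mem_of_mem_normalizer (inv_mem hrP) hx.1, ?_⟩
    have b1 : r⁻¹ * x * r⁻¹⁻¹ * c * (r⁻¹ * x * r⁻¹⁻¹)⁻¹ * c⁻¹ = r⁻¹ * (x * c * x⁻¹ * c⁻¹) * r := by
      calc _ = r⁻¹ * (x * (r * c * r⁻¹) * x⁻¹ * (r * c * r⁻¹)⁻¹) * r := by group
        _ = _ := by
          rcases hg c hc with e | e <;> rw [e]
          rw [show x * (c * e₁) * x⁻¹ = x * c * x⁻¹ * (x * e₁ * x⁻¹) by group,
            conj_eq_of_mem_centralizer hx.1.2 h1]
          group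
    have b2 := conj_mem_of_mem_normalizer' hrE (hL (hv x hx.1))
    rw [b1]
    rcases hg _ b2 with e | e
    · rw [← e]; simpa [mul_assoc] using hx.2
    · rw [← mul_mem_cancel_right hm1, ← e]; simpa [mul_assoc] using hx.2)
  obtain ⟨k, hk⟩ := h.comm hI (hTH (hET (hL h2))).1 (hTH (hET (hL h2)))
    (le_centralizer_iff.1 inf_le_right h2) q2 hrP
  replace hk : ∀ x ∈ P, k * x * k⁻¹ = x * tw H e₁ x := fun x hx => by
    rw [hk x hx, hg2, cj_eq_of_mem_normalizer hrH,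
      tw_mul_mem _ _ (tw_mem _ (hTH (hET (hL (mul_mem h2 h1)))) _), mul_assoc]
    by_cases e : x ∈ H
    · simp [tw_of_mem _ e]
    · rw [tw_of_not _ e, tw_of_not _ e, tw_of_not _ e, hC (hL h1) _ (hL h2), mul_assoc, q2, mul_one]
  obtain ⟨t, ht, e⟩ := exists_two_part k (P := P) fun x hx => by
    have b := hTH (hET (tw_mem H (hL h1) x))
    rw [eq_comm, ← mul_inv_eq_iff_eq_mul]
    calc _ = k * (k * x * k⁻¹) * k⁻¹ := by group
      _ = x := by rw [hk x hx, hk _ (mul_mem hx b.1), tw_mul_mem _ _ b, mul_assoc, tw_sq _ q1, mul_one]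
  replace e := fun x hx => (e x hx).trans (hk x hx)
  have htT : t ∈ 𝐂(T) := fun x hx => by
    rw [eq_comm, ← mul_inv_eq_iff_eq_mul, e x (hTH hx).1, tw_of_mem _ (hTH hx), mul_one]
  have htE : t ∈ E := hY ⟨hT.le_of_le_normalizer' ht (zpowers_le.2 (centralizer_anti hET htT))
    (le_normalizer_of_le_centralizer (zpowers_le.2 htT)) (mem_zpowers t), htT⟩
  have tvP : ∀ u ∈ R, ∀ e, (∀ x ∈ E, u * x * u⁻¹ = x * tw L e x) → u ∈ P ∧
      u * c * u⁻¹ * c⁻¹ = c * e * c⁻¹ := fun u hu e he => ⟨⟨hu, fun x hx => by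
    rw [eq_comm, ← mul_inv_eq_iff_eq_mul, he x (hL hx), tw_of_mem _ hx, mul_one]⟩, by
      rw [he c hc, tw_of_not _ hcL]⟩
  obtain ⟨p1, p2⟩ := tvP r₁ hr1 e₁ hu1
  obtain ⟨p3, p4⟩ := tvP r₂ hr2 e₂ hu2
  rw [conj_eq_of_mem_centralizer (hC hc) (hL h1)] at p2
  rw [conj_eq_of_mem_centralizer (hC hc) (hL h2)] at p4
  have b1 := e r₁ p1
  have b2 := e r₂ p3
  rw [tw_of_mem (H := H) _ ⟨p1, p2 ▸ hm1⟩, mul_one, mul_inv_eq_iff_eq_mul] at b1
  rw [tw_of_not (H := H) _ fun e => hm2 (p4 ▸ e.2)] at b2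
  have b3 := hu1 t htE
  rw [← b1, mul_inv_cancel_right, left_eq_mul] at b3
  have b4 : t ∈ L := by
    by_contra e
    exact h1' ((tw_of_not e₁ e).symm.trans b3)
  rw [p3.2 t b4, mul_inv_cancel_right, left_eq_mul] at b2
  exact h1' b2

theorem Hm.rank_le [IsSimpleGroup G] (h : Hm G) (hG : ¬ IsMulCommutative G) :
    Cfsg.PRankLE 2 2 G := fun A _ hA => by
  by_contra! h4
  obtain ⟨E, hAE, hE⟩ := Finite.exists_le_maximal (p := fun E : Subgroup G => ∀ x ∈ E, x * x = 1)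
    (a := A) fun x hx => by rw [← sq, hA x hx]
  have hC := comm_of_sq hE.1
  replace h4 : 4 < Nat.card E := h4.trans_le (card_le_of_le hAE)
  have hN := h.norm_le_cent hE.1 h4
  have hmax : ∀ x ∈ 𝐂(E), x * x = 1 → x ∈ E := fun x hx h2 =>
    hE.2 (y := E ⊔ zpowers x) (fun y hy => by
      rcases mem_sup_inv (le_normalizer_of_le_centralizer le_rfl hx) h2 hy with e | e
      · exact hE.1 y e
      · have := hE.1 _ e
        have e2 := hx _ e
        rw [mul_assoc, h2, mul_one] at e2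
        rw [← mul_assoc, mul_assoc y, ← mul_left_inj x⁻¹, mul_inv_cancel_right, one_mul,
          inv_eq_of_mul_eq_one_right h2] at this
        rw [← mul_left_inj x]
        calc y * y * x = y * (x * (y * x)) * x := by rw [← e2]
          _ = y * (x * y) * (x * x) := by group
          _ = 1 * x := by rw [this, h2]; simp) le_sup_left (mem_sup_right (mem_zpowers x))
  obtain ⟨T, hT⟩ := exists_isSylowIn 2 𝐂(E)
  have hET : E ≤ T := hT.le_of_le_normalizer (isPGroup_iff_mem.2 fun x hx => ⟨1, by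
    simpa [sq] using hE.1 x hx⟩) hC (le_normalizer_of_le_centralizer hT.le)
  have hcj : ∀ g : G, ∀ e ∈ E, g * e * g⁻¹ ∈ T → g * e * g⁻¹ ∈ E := fun g e he ht =>
    hmax _ (hT.le ht) (by rw [conj_mul, hE.1 e he, mul_one, mul_inv_cancel])
  have hNT : 𝐍(T) ≤ 𝐂(E) := fun n hn => hN (mem_normalizer_of_cj_le fun z hz => by
    obtain ⟨e, he, rfl⟩ := mem_cj'.1 hz
    exact hcj n e he (conj_mem_of_mem_normalizer hn (hET he)))
  have hS : IsSylowIn 2 T ⊤ := isSylowIn_of_normalizer le_top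
    (hT.mono (le_inf le_top le_normalizer) (inf_le_right.trans hNT))
  obtain ⟨P, hP⟩ := hS.exists_sylow_top
  obtain ⟨e, he, he1⟩ : ∃ e ∈ E, e ≠ 1 := by
    by_contra! h
    rw [(eq_bot_iff_forall E).2 h, card_bot] at h4
    omega
  have ho : orderOf e = 2 := orderOf_eq_prime (by rw [sq, hE.1 e he]) he1
  obtain ⟨N, hN1, hN2, hN3⟩ := Cfsg.Agent.S0215.result P e ho (show e ∈ (P : Subgroup G) from hP ▸ hET he)
    fun g hg => by
      have h1 := hcj g e he (hP ▸ hg)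
      have h2 : T ≤ centralizer {g * e * g⁻¹} := fun t ht =>
        mem_centralizer_singleton_iff.2 (hT.le ht _ h1).symm
      have h3 : T ^ᶜ g ≤ centralizer {g * e * g⁻¹} := by
        rw [← cj_centralizer_singleton]
        exact cj_mono g fun t ht => mem_centralizer_singleton_iff.2 (hT.le ht _ he).symm
      obtain ⟨c, hc, h5⟩ := ((hS.cj_of_mem trivial).mono h3 le_top).conj (hS.mono h2 le_top)
      rw [cj_cj, cj_eq_self_iff] at h5
      calc _ = c * (g * e * g⁻¹) * c⁻¹ := by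
            rw [mem_centralizer_singleton_iff.1 hc, mul_inv_cancel_right]
        _ = c * g * e * (c * g)⁻¹ := by group
        _ = e := conj_eq_of_mem_centralizer (hNT h5) he
  rcases hN1.eq_bot_or_eq_top with rfl | rfl
  · rcases (inferInstance : (center G).Normal).eq_bot_or_eq_top with h1 | h1
    · refine he1 (mem_bot.1 (h1 ▸ mem_center_iff.2 fun g => ?_))
      have := mem_bot.1 (hN3 g)
      rw [mul_inv_eq_one, mul_inv_eq_iff_eq_mul] at this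
      exact this.symm
    · exact hG ⟨⟨fun a b => mem_center_iff.1 (h1 ▸ mem_top b) a⟩⟩
  · rw [card_top] at hN2
    exact absurd (hN2.of_dvd_nat (ho ▸ orderOf_dvd_natCard e)) (by decide)

end H47.Homog
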