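import Mathlib

/-!
A perfect normal `p'`-subgroup of `GL(V)` in odd characteristic `p` is trivial, and a free twisted
action.
-/

set_option autoImplicit false

namespace H65.HG

open Module Subgroup
open scoped commutatorElement

section Lin

variable {F V : Type*} [Field F] [AddCommGroup V] [Module F V] {p : ℕ}

theorem lin_key (hp : (p : F) = 0) (h2 : (2 : F) ≠ 0) (N : Subgroup (V ≃ₗ[F] V)) [hn : N.Normal]
    (hN : ∀ h ∈ N, h ^ p = 1 → h = 1) {g : V ≃ₗ[F] V} (hg : g ∈ N) (e : V) (f : Dual F V)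
    (h0 : f e = 0) (h1 : f (g e) = 1) : f (g (g e)) = 0 := by
  have hf : (2 • f : Dual F V) (g e) = 2 := by simp [h1]
  set σ := reflection hf with hσ
  have hσa : ∀ x, σ x = x - (2 * f x) • g e := fun x => by
    rw [hσ, reflection_apply]; simp
  set h := σ * g * σ⁻¹ * g⁻¹ with hh
  have hm : h ∈ N := mul_mem (hn.conj_mem g hg σ) (inv_mem hg)
  have hi : σ⁻¹ = σ := rfl
  have ha : ∀ y, h (g y) = g y - (2 * f y) • g (g e) +
      (4 * f y * f (g (g e)) - 2 * f (g y)) • g e := fun y => by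
    have : h (g y) = σ (g (σ y)) := by
      rw [hh, hi]
      simp [LinearEquiv.mul_apply]
    rw [this, hσa, hσa]
    simp only [map_sub, map_smul, smul_eq_mul]
    module
  have hu : h (g e) = -g e := by
    rw [ha, h0, h1]; module
  have hw : h (g (g e)) = -g (g e) + (2 * f (g (g e))) • g e := by
    rw [ha, h1]; module
  have hsq : ∀ y, (h * h) (g y) = g y - (4 * f y * f (g (g e))) • g e := fun y => by
    rw [LinearEquiv.mul_apply, ha y]
    simp only [map_add, map_sub, map_smul]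
    rw [hu, hw, ha y]
    module
  have hpow : ∀ (k : ℕ) y, ((h * h) ^ k) (g y) = g y - ((k : F) * (4 * f y * f (g (g e)))) • g e := by
    intro k
    induction k with
    | zero => intro y; simp
    | succ k ih =>
      intro y
      rw [pow_succ, LinearEquiv.mul_apply, hsq, map_sub, map_smul, ih, ih, h0]
      push_cast
      module
  have h3 : (h * h) ^ p = 1 := by
    ext x
    obtain ⟨y, rfl⟩ := g.surjective x
    rw [hpow, hp]; simp
  have h4 := hsq (g e)
  rw [hN _ (mul_mem hm hm) h3, h1] at h4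
  have h5 : (4 * 1 * f (g (g e))) • g e = 0 := by
    have : g (g e) = g (g e) - (4 * 1 * f (g (g e))) • g e := h4
    exact sub_eq_self.1 this.symm
  rcases smul_eq_zero.1 h5 with h6 | h6
  · have h7 : (4 : F) ≠ 0 := by
      rw [show (4 : F) = 2 * 2 by norm_num]; exact mul_ne_zero h2 h2
    simpa [h7] using h6
  · rw [h6, map_zero] at h1; exact absurd h1 zero_ne_one

theorem exists_fun {e x : V} (h : x ∉ Submodule.span F {e}) :
    ∃ f : Dual F V, f e = 0 ∧ f x ≠ 0 := by
  obtain ⟨f, h1, h2⟩ := Submodule.exists_dual_map_eq_bot_of_notMem h inferInstance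
  refine ⟨f, ?_, h1⟩
  have : f e ∈ (Submodule.span F {e}).map f := ⟨e, Submodule.mem_span_singleton_self e, rfl⟩
  rwa [h2] at this

theorem lin_sq (hp : (p : F) = 0) (h2 : (2 : F) ≠ 0) (N : Subgroup (V ≃ₗ[F] V)) [hn : N.Normal]
    (hN : ∀ h ∈ N, h ^ p = 1 → h = 1) {g : V ≃ₗ[F] V} (hg : g ∈ N) :
    ∃ a : F, ∀ x, g (g x) = a • x := by
  have key : ∀ (e : V) (f : Dual F V), f e = 0 → f (g e) ≠ 0 → f (g (g e)) = 0 := by
    intro e f h0 h1
    have := lin_key hp h2 N hN hg e ((f (g e))⁻¹ • f) (by simp [h0]) (by simp [h1])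
    simpa [h1] using this
  have hs : ∀ e, g (g e) ∈ Submodule.span F {e} := fun e => by
    by_contra h
    obtain ⟨f₁, a₁, b₁⟩ := exists_fun h
    by_cases h' : g e ∈ Submodule.span F {e}
    · obtain ⟨c, hc⟩ := Submodule.mem_span_singleton.1 h'
      refine h ?_
      rw [← hc, map_smul]
      exact Submodule.smul_mem _ _ h'
    · obtain ⟨f₂, a₂, b₂⟩ := exists_fun h'
      have c₁ : f₁ (g e) = 0 := by
        by_contra c; exact b₁ (key e f₁ a₁ c)
      have := key e (f₁ + f₂) (by simp [a₁, a₂]) (by simpa [c₁] using b₂)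
      simp only [LinearMap.add_apply, key e f₂ a₂ b₂, add_zero] at this
      exact b₁ this
  obtain ⟨a, ha⟩ := LinearMap.exists_eq_smul_id_of_forall_notLinearIndependent
    (f := ((g * g : V ≃ₗ[F] V) : V →ₗ[F] V)) fun v hv => by
      obtain ⟨c, hc⟩ := Submodule.mem_span_singleton.1 (hs v)
      have := (LinearIndependent.pair_iff.1 hv c (-1) (by
        change c • v + (-1 : F) • g (g v) = 0
        rw [hc]; simp)).2
      simp at this
  exact ⟨a, fun x => by simpa using LinearMap.congr_fun ha x⟩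

theorem eq_bot_of_sq {G : Type*} [Group G] {N : Subgroup G} (hp : ⁅N, N⁆ = N)
    (h : ∀ g ∈ N, ∀ k ∈ N, g * g * k = k * (g * g)) : N = ⊥ := by
  have h1 : ⁅N, N⁆ ≤ centralizer (N : Set G) := commutator_le.2 fun a ha b hb => by
    have e : ⁅a, b⁆ = (a * a) * ((a⁻¹ * b) * (a⁻¹ * b)) * (b⁻¹ * b⁻¹) := by
      rw [commutatorElement_def]; group
    have c : ∀ g ∈ N, g * g ∈ centralizer (N : Set G) := fun g hg k hk => (h g hg k hk).symm
    rw [e]
    exact mul_mem (mul_mem (c a ha) (c _ (mul_mem (inv_mem ha) hb))) (c _ (inv_mem hb))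
  rw [hp] at h1
  rw [← hp]
  exact commutator_eq_bot_iff_le_centralizer.2 h1

theorem lin_bot (hp : (p : F) = 0) (h2 : (2 : F) ≠ 0) (N : Subgroup (V ≃ₗ[F] V)) [hn : N.Normal]
    (hN : ∀ h ∈ N, h ^ p = 1 → h = 1) (hP : ⁅N, N⁆ = N) : N = ⊥ :=
  eq_bot_of_sq hP fun g hg k _ => by
    obtain ⟨a, ha⟩ := lin_sq hp h2 N hN hg
    ext x
    simp only [LinearEquiv.mul_apply, ha, map_smul]

end Lin

/-- A free twisted action: the order of `P` divides the order of `C`. -/
theorem card_dvd_twist {G : Type*} [Group G] [Finite G] (φ : G →* G) (C P : Subgroup G)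
    [hC : C.Normal] (h1 : ∀ g, g * (φ g)⁻¹ ∈ C)
    (h2 : ∀ c ∈ C, ∀ d ∈ P, d * c * (φ d)⁻¹ = c → d = 1) : Nat.card P ∣ Nat.card C := by
  letI : MulAction P C :=
    { smul := fun d c => ⟨d * c * (φ d)⁻¹, by
        have := mul_mem (hC.conj_mem c c.2 d) (h1 d)
        convert this using 1; group⟩
      one_smul := fun c => Subtype.ext (by
        change ((1 : P) : G) * c * (φ (1 : P))⁻¹ = c
        simp)
      mul_smul := fun a b c => Subtype.ext (by
        change ((a * b : P) : G) * c * (φ (a * b : P))⁻¹ = a * (b * c * (φ b)⁻¹) * (φ a)⁻¹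
        simp only [coe_mul, map_mul]; group) }
  have hf : ∀ c : C, MulAction.stabilizer P c = ⊥ := fun c =>
    (eq_bot_iff_forall _).2 fun d hd => Subtype.ext (h2 c c.2 d d.2 (congrArg Subtype.val hd))
  rw [Nat.card_congr (MulAction.selfEquivOrbitsQuotientProd hf), Nat.card_prod]
  exact Dvd.intro_left _ rfl

end H65.HG
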